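import Cfsg.Agent.H861.Gen.CoOneCert
import Cfsg.Agent.H345.RG.Fpr

/-!
# `Co1` has no proper subgroup of index less than 1771 (helper171, S3509)

The index is divisible by 13 or 23 (`H861.Gen.CoOne.gen_of`); fixed points of the elements of order 11, 13, 23 and the engine of
helper940 for the other indices.
-/

set_option autoImplicit false
set_option maxRecDepth 100000

namespace Cfsg.Agent.H171.RG.Co1

open Cfsg Subgroup Cfsg.Agent.H940 Cfsg.Agent.H940.Eng Cfsg.Agent.H940.Eng.D Cfsg.Agent.H147.Fpr.CoOne Cfsg.Agent.H444.Fpr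
open Cfsg.Spor (Co1)

/-- the check for the indices `lo ≤ d < lo + n` -/
def ckIx (c e lo n : ℕ) : Bool :=
  (List.range n).all fun i => Nat.ble (lo + i) 1 || !Nat.beq (n_co1 % (lo + i)) 0 ||
    (!Nat.beq ((lo + i) % 13) 0 && !Nat.beq ((lo + i) % 23) 0) ||
    !adm [(23, 1, 11), (13, c, e), (11, 6, 10)] (lo + i) || bad l_co1 n_co1 [] 60 (loc c) o_co1 (n_co1 / (lo + i))

theorem ck_a : ckIx 12 12 0 1771 = true := by decide +kernel
theorem ck_b : ckIx 24 6 0 1771 = true := by decide +kernel

theorem ck_spec {c e lo n d : ℕ} (h : ckIx c e lo n = true) (h1 : lo ≤ d) (h2 : d < lo + n) (h3 : 1 < d) (h4 : d ∣ n_co1)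
    (h5 : 13 ∣ d ∨ 23 ∣ d) :
    adm [(23, 1, 11), (13, c, e), (11, 6, 10)] d = false ∨ bad l_co1 n_co1 [] 60 (loc c) o_co1 (n_co1 / d) = true := by
  unfold ckIx at h
  rw [List.all_eq_true] at h
  have h6 := h (d - lo) (List.mem_range.2 (by omega))
  rw [show lo + (d - lo) = d by omega] at h6
  simp only [Bool.or_eq_true, Bool.and_eq_true, Bool.not_eq_true', bleT, beqF] at h6
  rcases h6 with (((h6 | h6) | h6) | h6) | h6
  · omega
  · exact absurd (Nat.mod_eq_zero_of_dvd h4) h6
  · omega
  · exact Or.inl h6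
  · exact Or.inr h6

theorem index_aux (B : Base) {c e : ℕ} (hk : Known Co1 13 c e) (hce : c * e = 144) (hc : ckIx c e 0 1771 = true)
    {X : Subgroup Co1} (hX : X ≠ ⊤) : 1771 ≤ X.index := by
  by_contra hlt
  push Not at hlt
  have hf := fin
  have hs := simple
  have hmul := card_mul_index X
  have hcd := card
  have hpos : 0 < X.index := Nat.pos_of_ne_zero Subgroup.index_ne_zero_of_finite
  have h1 : 1 < X.index := by
    by_contra h
    exact hX (Subgroup.index_eq_one.1 (by omega))
  have hdvd : X.index ∣ n_co1 := by rw [← hcd]; exact index_dvd_card X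
  have h13 : 13 ∣ X.index ∨ 23 ∣ X.index := by
    by_contra hno
    push Not at hno
    apply hX
    have key : ∀ q : ℕ, q.Prime → q ∣ n_co1 → ¬ q ∣ X.index → q ∣ Nat.card X := by
      intro q hq hqn hqi
      rw [← hcd, ← hmul] at hqn
      exact (hq.dvd_mul.1 hqn).resolve_right hqi
    exact H861.Gen.CoOne.gen_of B (key 23 (by norm_num) (by decide +kernel) hno.2) (key 13 (by norm_num) (by decide +kernel) hno.1)
  rw [hcd] at hmul
  have hdiv : n_co1 / X.index = Nat.card X := Nat.div_eq_of_eq_mul_left hpos hmul.symm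
  rcases ck_spec hc (Nat.zero_le _) (by rw [zero_add]; exact hlt) h1 hdvd h13 with h2 | h2
  · have h3 := adm_of_known (D := [(23, 1, 11), (13, c, e), (11, 6, 10)]) (D_ok hk) hX
    rw [h2] at h3
    exact absurd h3 (by decide)
  · rw [hdiv] at h2
    have C := ctx B hk hce
    have h3 := not_bad C.val C.card C.ords C.loc (full := []) (bd := 60) (H := X) (by simp) hX
    rw [h3] at h2
    exact absurd h2 (by decide)

/-- **no proper subgroup of index less than 1771** -/
theorem minIx (B : Base) : H345.RG.MinIx Co1 1771 := by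
  intro X hX
  rcases known13 with h | h
  · exact index_aux B h (by norm_num) ck_a hX
  · exact index_aux B h (by norm_num) ck_b hX

end Cfsg.Agent.H171.RG.Co1
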