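import Cfsg.Agent.H345.RG.Fpr

/-!
# Fixed point ratios: one more rule (helper171, S3509 sporadic block)

* `F4` : `x` normalises `K`, `C_K(x) = 1`, and every subgroup containing `x` and a nontrivial element of `K` contains `a`; then
  `fpr x ≤ fpr a + 1 / |K|`;
* `FB.A4` : the case `⟨x, a⟩ ≅ A₄`;
* `FB.inv_mul` : `x`, `x'` conjugate involutions, `x x'` of order `r k`: `fpr x ≤ fpr ((x x') ^ k) + 1 / r`;
* `noCov_of_split` : no covers, from a rule for the covers with an element of a set `A` and bounds for the other elements.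
-/

set_option autoImplicit false

namespace Cfsg.Agent.H171.RG

open MulAction Cfsg.Agent.H106.RC Cfsg.Agent.H345.RG

section fpr

variable {G Ω : Type*} [Group G] [MulAction G Ω]

/-- **F4** -/
theorem F4 [Finite Ω] {x a : G} (K : Subgroup G) [Finite K] (hn : ∀ k ∈ K, x * k * x⁻¹ ∈ K)
    (hf : ∀ k ∈ K, x * k * x⁻¹ = k → k = 1)
    (ha : ∀ k ∈ K, k ≠ 1 → ∀ H : Subgroup G, x ∈ H → k ∈ H → a ∈ H) :
    fpr Ω x ≤ fpr Ω a + 1 / Nat.card K := by
  classical
  rcases isEmpty_or_nonempty Ω with h0 | h0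
  · rw [fpr, fpr, Nat.card_of_isEmpty (α := Ω), Nat.cast_zero, div_zero, div_zero]
    positivity
  have hn' : (0 : ℚ) < Nat.card Ω := by exact_mod_cast (Nat.card_pos : 0 < Nat.card Ω)
  have hK : (0 : ℚ) < Nat.card K := by exact_mod_cast (Nat.card_pos : 0 < Nat.card K)
  let D := {w : Ω // x • w = w ∧ ¬ a • w = w}
  have hst : ∀ w : D, ∀ k ∈ K, k • w.1 = w.1 → k = 1 := by
    intro w k hk hkw
    by_contra hk1
    exact w.2.2 (ha k hk hk1 (stabilizer G w.1) w.2.1 hkw)
  have hinj : Nat.card K * Nat.card D ≤ Nat.card Ω := by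
    rw [← Nat.card_prod]
    refine Nat.card_le_card_of_injective (fun q : K × D => (q.1 : G) • q.2.1) ?_
    rintro ⟨⟨k, hk⟩, w⟩ ⟨⟨k', hk'⟩, w'⟩ hq
    have hq' : k • w.1 = k' • w'.1 := hq
    have hu : (k'⁻¹ * k) • w.1 = w'.1 := by rw [mul_smul, hq', inv_smul_smul]
    have huK : k'⁻¹ * k ∈ K := mul_mem (inv_mem hk') hk
    have h1 : x • (k'⁻¹ * k) • w.1 = (k'⁻¹ * k) • w.1 := by rw [hu]; exact w'.2.1
    have h2 : ((k'⁻¹ * k)⁻¹ * (x * (k'⁻¹ * k) * x⁻¹)) • w.1 = w.1 := by
      have h3 : x⁻¹ • w.1 = w.1 := by rw [inv_smul_eq_iff, w.2.1]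
      rw [mul_smul, mul_smul, h3, mul_smul, h1, inv_smul_smul]
    have h3 := hst w _ (mul_mem (inv_mem huK) (hn _ huK)) h2
    have h4 : k'⁻¹ * k = 1 := hf _ huK (inv_mul_eq_one.1 h3).symm
    have h5 : k = k' := (inv_mul_eq_one.1 h4).symm
    subst h5
    have h6 : w = w' := by
      apply Subtype.ext
      rw [h4, one_smul] at hu
      exact hu
    rw [h6]
  have hsplit : Nat.card (fixedBy Ω x) ≤ Nat.card (fixedBy Ω a) + Nat.card D := by
    rw [← Nat.card_sum]
    refine Nat.card_le_card_of_injective (fun w : fixedBy Ω x =>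
      if h : a • w.1 = w.1 then (Sum.inl ⟨w.1, h⟩ : fixedBy Ω a ⊕ D) else Sum.inr ⟨w.1, w.2, h⟩) ?_
    intro u v huv
    by_cases hu : a • u.1 = u.1 <;> by_cases hv : a • v.1 = v.1
    · simp only [hu, hv, dite_true] at huv
      injection huv with huv
      exact Subtype.ext (congrArg (fun q : fixedBy Ω a => (q : Ω)) huv)
    · simp only [hu, hv, dite_true, dite_false, reduceCtorEq] at huv
    · simp only [hu, hv, dite_true, dite_false, reduceCtorEq] at huv
    · simp only [hu, hv, dite_false] at huv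
      injection huv with huv
      exact Subtype.ext (congrArg (fun q : D => (q : Ω)) huv)
  have h1 : (Nat.card K : ℚ) * Nat.card D ≤ Nat.card Ω := by exact_mod_cast hinj
  have h2 : (Nat.card (fixedBy Ω x) : ℚ) ≤ Nat.card (fixedBy Ω a) + Nat.card D := by exact_mod_cast hsplit
  have h3 : (Nat.card D : ℚ) / Nat.card Ω ≤ 1 / Nat.card K := by
    rw [div_le_div_iff₀ hn' hK]
    linarith
  calc fpr Ω x ≤ ((Nat.card (fixedBy Ω a) : ℚ) + Nat.card D) / Nat.card Ω := div_le_div_of_nonneg_right h2 hn'.le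
    _ = fpr Ω a + (Nat.card D : ℚ) / Nat.card Ω := add_div _ _ _
    _ ≤ fpr Ω a + 1 / Nat.card K := by linarith

end fpr

section FB

variable {S : Type} [Group S] {x a : S} {b : ℚ}

/-- **`A₄`** : `x³ = a² = (a x)³ = 1` -/
theorem FB.A4 (hx : x ^ 3 = 1) (ha : a * a = 1) (ha1 : a ≠ 1) (hax : (a * x) ^ 3 = 1) (hb : FB S a b) :
    FB S x (b + 1 / 4) := by
  intro Ω _ _ _ hE
  have hx' : x * x * x = 1 := by rw [← hx, pow_succ, pow_two]
  have hxi : x⁻¹ = x * x := by
    rw [inv_eq_iff_mul_eq_one, ← mul_assoc]; exact hx'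
  have hai : a⁻¹ = a := by rw [inv_eq_iff_mul_eq_one]; exact ha
  set c : S := x * a * x⁻¹ with hc
  set d : S := x * c * x⁻¹ with hd
  have hcc : c * c = 1 := by
    calc c * c = x * (a * a) * x⁻¹ := by rw [hc]; group
      _ = 1 := by rw [ha]; group
  have hdd : d * d = 1 := by
    calc d * d = x * (c * c) * x⁻¹ := by rw [hd]; group
      _ = 1 := by rw [hcc]; group
  have hxd : x * d * x⁻¹ = a := by
    calc x * d * x⁻¹ = (x * x * x) * a * (x * x * x)⁻¹ := by rw [hd, hc]; group
      _ = a := by rw [hx']; group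
  have hacd : a * c * d = 1 := by
    have h1 : a * c * d = (a * x) ^ 3 * (x * x * x)⁻¹ := by
      rw [hd, hc]; simp only [pow_succ, pow_zero, one_mul]; group
    rw [h1, hax, hx', inv_one, one_mul]
  have hd' : d = c * a := by
    have h1 : d = (a * c)⁻¹ := (inv_eq_of_mul_eq_one_right hacd).symm
    have hci : c⁻¹ = c := by rw [inv_eq_iff_mul_eq_one]; exact hcc
    rw [h1, mul_inv_rev, hai, hci]
  have hci : c⁻¹ = c := by rw [inv_eq_iff_mul_eq_one]; exact hcc
  have hcomm : c * a = a * c := by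
    have h1 : (c * a) * (c * a) = 1 := by rw [← hd']; exact hdd
    calc c * a = (c * a)⁻¹ := (inv_eq_of_mul_eq_one_left h1).symm
      _ = a * c := by rw [mul_inv_rev, hai, hci]
  -- distinctness
  have hc1 : c ≠ 1 := by
    intro h
    apply ha1
    calc a = x⁻¹ * (x * a * x⁻¹) * x := by group
      _ = 1 := by rw [← hc, h]; group
  have hd1 : d ≠ 1 := by
    intro h
    apply ha1
    rw [← hxd, h]; group
  have hac : a ≠ c := by
    intro h
    apply hd1
    rw [hd', ← h, ha]
  have had : a ≠ d := by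
    intro h
    apply hc1
    rw [hd'] at h
    exact (mul_eq_right.1 h.symm)
  have hcd : c ≠ d := by
    intro h
    apply ha1
    rw [hd'] at h
    exact (mul_eq_left.1 h.symm)
  have e1 : a * d = c := by rw [hd', hcomm, ← mul_assoc, ha, one_mul]
  have e2 : d * a = c := by rw [hd', mul_assoc, ha, mul_one]
  have e3 : c * d = a := by rw [hd', ← mul_assoc, hcc, one_mul]
  have e4 : d * c = a := by rw [hd', hcomm, mul_assoc, hcc, mul_one]
  have hdi : d⁻¹ = d := by rw [inv_eq_iff_mul_eq_one]; exact hdd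
  let K : Subgroup S :=
    { carrier := {1, a, c, d}
      one_mem' := Or.inl rfl
      mul_mem' := by
        rintro u v (rfl | rfl | rfl | rfl) (rfl | rfl | rfl | rfl)
        · simp
        · simp
        · simp
        · simp
        · simp
        · simp [ha]
        · right; right; right; rw [← hcomm]; exact hd'.symm
        · right; right; left; exact e1
        · simp
        · right; right; right; exact hd'.symm
        · simp [hcc]
        · right; left; exact e3
        · simp
        · right; right; left; exact e2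
        · right; left; exact e4
        · left; exact hdd
      inv_mem' := by
        rintro u (rfl | rfl | rfl | rfl)
        · simp
        · right; left; exact hai
        · right; right; left; exact hci
        · right; right; right; exact hdi }
  have hKm : ∀ k ∈ K, k = 1 ∨ k = a ∨ k = c ∨ k = d := fun k hk => hk
  have m1 : (1 : S) ∈ K := Or.inl rfl
  have ma : a ∈ K := Or.inr (Or.inl rfl)
  have mc : c ∈ K := Or.inr (Or.inr (Or.inl rfl))
  have md : d ∈ K := Or.inr (Or.inr (Or.inr rfl))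
  have hKf : Finite K := (Set.toFinite ({1, a, c, d} : Set S)).to_subtype
  have h4 : 4 ≤ Nat.card K := by
    have h : Function.Injective (![⟨1, m1⟩, ⟨a, ma⟩, ⟨c, mc⟩, ⟨d, md⟩] : Fin 4 → K) := by
      intro i j hij
      have hij' := congrArg (fun q : K => (q : S)) hij
      fin_cases i <;> fin_cases j <;> simp at hij' <;> (first
        | rfl
        | exact absurd hij' ha1
        | exact absurd hij'.symm ha1
        | exact absurd hij' hc1
        | exact absurd hij'.symm hc1
        | exact absurd hij' hd1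
        | exact absurd hij'.symm hd1
        | exact absurd hij' hac
        | exact absurd hij'.symm hac
        | exact absurd hij' had
        | exact absurd hij'.symm had
        | exact absurd hij' hcd
        | exact absurd hij'.symm hcd)
    have := Nat.card_le_card_of_injective _ h
    rwa [Nat.card_fin] at this
  have h5 := F4 (Ω := Ω) (x := x) (a := a) K (by
    intro k hk
    rcases hKm k hk with rfl | rfl | rfl | rfl
    · rw [mul_one, mul_inv_cancel]; exact m1
    · exact mc
    · exact md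
    · rw [hxd]; exact ma) (by
    intro k hk h
    rcases hKm k hk with rfl | rfl | rfl | rfl
    · rfl
    · exact absurd h.symm hac
    · exact absurd h.symm hcd
    · rw [hxd] at h; exact absurd h had) (by
    intro k hk hk1 H hxH hkH
    rcases hKm k hk with rfl | rfl | rfl | rfl
    · exact absurd rfl hk1
    · exact hkH
    · rw [← hxd]
      exact mul_mem (mul_mem hxH (mul_mem (mul_mem hxH hkH) (inv_mem hxH))) (inv_mem hxH)
    · rw [← hxd]
      exact mul_mem (mul_mem hxH hkH) (inv_mem hxH))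
  have h6 := hb Ω hE
  have h7 : (1 : ℚ) / Nat.card K ≤ 1 / 4 := by
    have : (4 : ℚ) ≤ Nat.card K := by exact_mod_cast h4
    exact one_div_le_one_div_of_le (by norm_num) this
  linarith

/-- **inversion** : `x² = 1`, `x'` with `x'² = 1`, `y = (x x') ^ k` of prime order `r` -/
theorem FB.inv {x' : S} {k r : ℕ} (hr : r.Prime) (hr2 : 2 < r) (hx : x * x = 1) (hx' : x' * x' = 1)
    (hy : (x * x') ^ (k * r) = 1) (hb : FB S ((x * x') ^ k) b) : FB S x (b + 1 / r) := by
  have hxi : x⁻¹ = x := by rw [inv_eq_iff_mul_eq_one]; exact hx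
  have hxi' : x'⁻¹ = x' := by rw [inv_eq_iff_mul_eq_one]; exact hx'
  have h1 : x * (x * x') * x⁻¹ = (x * x')⁻¹ := by
    rw [mul_inv_rev, hxi, hxi']
    calc x * (x * x') * x = (x * x) * x' * x := by group
      _ = x' * x := by rw [hx, one_mul]
  have h2 : ((x * x') ^ k) ^ r = 1 := by rw [← pow_mul, hy]
  refine FB.F3 (a := r - 1) hr h2 ?_ ?_ hb
  · have h3 : x * (x * x') ^ k * x⁻¹ = ((x * x') ^ k)⁻¹ := by
      rw [← conj_pow, h1, inv_pow]
    rw [h3, inv_eq_iff_mul_eq_one, ← pow_succ', Nat.sub_add_cancel hr.one_lt.le, h2]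
  · intro h
    have h3 : (r - 1) % r = 1 % r := h
    rw [Nat.mod_eq_of_lt (by omega), Nat.mod_eq_of_lt (by omega)] at h3
    omega

/-- two conjugates -/
theorem FB.two [Finite S] {m p : ℕ} (hm : 0 < m) (hI : MinIx S m) (hp : p.Prime) (hx : x ^ p = 1) (hx1 : x ≠ 1) {g : S}
    (h : Subgroup.closure {x, g * x * g⁻¹} = ⊤) : FB S x (1 - p * (1 - 1 / m) / (2 * (p - 1))) := by
  have h1 := FB.F2 hm hI hp hx hx1 [1, g] (by simp) (by
    rw [Gen, ← h]
    congr 1
    ext y
    simp only [List.mem_cons, List.not_mem_nil, or_false, exists_eq_or_imp, exists_eq_left, Set.mem_insert_iff,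
      Set.mem_singleton_iff]
    simp only [one_mul, inv_one, mul_one]
    rfl)
  simpa using h1

/-- **no covers** : a rule for the covers with an element in `A`, bounds for the other elements -/
theorem noCov_of_split [Finite S] (hin : ∀ α : MulAut S, ∃ s, α = MulAut.conj s) (A : S → Prop) (β : ℕ → ℚ)
    (hA : ∀ (Ω : Type) [Finite Ω] [Nonempty Ω] [MulAction S Ω], Env S Ω (⊤ : Subgroup S) →
      ∀ (ι : Type) [Finite ι] (x : ι → S) (r : ι → ℕ), PF x r → Cov Ω x → ∀ i, A (x i) → False)
    (hβ : ∀ (p : ℕ) (x : S), p.Prime → x ^ p = 1 → x ≠ 1 → A x ∨ FB S x (β p))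
    (hs : ∀ s : Finset ℕ, (∀ p ∈ s, p.Prime) → 2 ≤ s.card → (∃ g : S, orderOf g = ∏ p ∈ s, p) →
      ∑ p ∈ s, β p < 1) : NoCov S := by
  classical
  refine Cfsg.Agent.H867.RC.noCov_of_inner hin fun Ω _ _ _ hE ι _ x r hx hc _ => ?_
  by_cases hA' : ∃ i, A (x i)
  · obtain ⟨i, hi⟩ := hA'
    exact hA Ω hE ι x r hx hc i hi
  push Not at hA'
  have : Fintype ι := Fintype.ofFinite ι
  by_cases hι : 2 ≤ Fintype.card ι
  · refine dead_of_sum hc (fun i => β (r i)) (fun i =>
      ((hβ _ _ (hx.prime i) (hx.pow i) (hx.ne i)).resolve_left (hA' i)) Ω hE) ?_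
    obtain ⟨g, hg, -⟩ := exists_prod hx
    have h1 := hs (Finset.univ.image r) (by
      intro p hp
      obtain ⟨i, -, rfl⟩ := Finset.mem_image.1 hp
      exact hx.prime i) (by
      rw [Finset.card_image_of_injective _ hx.inj, Finset.card_univ]
      exact hι) ⟨g, by rw [hg, Finset.prod_image fun a _ b _ h => hx.inj h]⟩
    rwa [Finset.sum_image fun a _ b _ h => hx.inj h] at h1
  · obtain ⟨ω₀⟩ := (inferInstance : Nonempty Ω)
    obtain ⟨i, hi⟩ := hc ω₀
    have hsub : ∀ j, j = i := by
      have : Fintype.card ι ≤ 1 := by omega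
      exact fun j => Fintype.card_le_one_iff.1 this j i
    apply hx.ne i
    have : Nonempty Ω := ⟨ω₀⟩
    refine hE.single fun ω => ?_
    obtain ⟨j, hj⟩ := hc ω
    rwa [hsub j] at hj

end FB

end Cfsg.Agent.H171.RG
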